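import Mathlib
import Cfsg.Agent.H44.TwoClass
import Cfsg.Agent.H19.Cores

/-!
# Consequences of `TwoClassData` used for the `p`-core
-/

set_option autoImplicit false

namespace Cfsg.Agent.H20.TwoClass

open Cfsg.Agent

variable {G : Type*} [Group G] [Finite G] {χ : Cfsg.IrrCharacter G} {N : Subgroup G} {g₀ : G}
  {p : ℕ} [Fact p.Prime]

theorem mem_of_data (d : H44.TwoClassData χ N g₀) : g₀ ∈ N :=
  (d.mem_iff g₀).mpr (Or.inr (IsConj.refl g₀))

theorem comm_exp (d : H44.TwoClassData χ N g₀) (hpN : IsPGroup p N) :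
    (∀ a ∈ N, ∀ b ∈ N, a * b = b * a) ∧ ∀ x ∈ N, x ^ p = 1 := by
  obtain ⟨r, hr, hcomm, hexp, -⟩ := d.elementary
  refine ⟨fun a ha b hb => congrArg Subtype.val (hcomm.1.1 (⟨a, ha⟩ : N) ⟨b, hb⟩), ?_⟩
  obtain ⟨k, hk⟩ := hpN ⟨g₀, mem_of_data d⟩
  have h1 : orderOf g₀ = r :=
    haveI := Fact.mk hr; orderOf_eq_prime (hexp _ (mem_of_data d)) d.ne_one
  have h2 : r ∣ p ^ k := by
    rw [← h1]
    exact orderOf_dvd_of_pow_eq_one (by simpa using congrArg Subtype.val hk)
  rwa [← (Nat.prime_dvd_prime_iff_eq hr (Fact.out : p.Prime)).mp (hr.dvd_of_dvd_pow h2)]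

theorem card_centralizer_quotient [N.Normal] (d : H44.TwoClassData χ N g₀) (g : G) (hg : g ∉ N) :
    Nat.card (Subgroup.centralizer ({g} : Set G)) =
      Nat.card (Subgroup.centralizer ({(g : G ⧸ N)} : Set (G ⧸ N))) := by
  refine (H44.card_centralizer_eq_quotient_iff N g).mpr fun ψ hψ => ?_
  rcases eq_or_ne ψ χ with rfl | hne
  · by_contra hc
    exact hg ((d.support g).mp hc)
  · exact absurd (d.ker_other ψ hne) hψ

theorem fixedPointFree (d : H44.TwoClassData χ N g₀) (hpN : IsPGroup p N) {g : G}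
    (hg : ¬ p ∣ orderOf g) (hg1 : g ≠ 1) : ∀ n ∈ N, g * n = n * g → n = 1 := by
  intro n hn hc
  by_contra hn1
  haveI := Fintype.ofFinite G
  obtain ⟨P, hP⟩ := d.exists_sylow_centralizer hpN hn hn1
  have hgP : g ∈ (P : Subgroup G) := hP ▸ Subgroup.mem_centralizer_singleton_iff.mpr hc
  obtain ⟨k, hk⟩ := P.2 ⟨g, hgP⟩
  have h1 : orderOf g ∣ p ^ k :=
    orderOf_dvd_of_pow_eq_one (by simpa using congrArg Subtype.val hk)
  obtain ⟨j, -, hj⟩ := (Nat.dvd_prime_pow (Fact.out : p.Prime)).mp h1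
  rcases Nat.eq_zero_or_pos j with rfl | hj0
  · exact hg1 (orderOf_eq_one_iff.mp (by simpa using hj))
  · exact hg (hj ▸ dvd_pow_self p hj0.ne')

theorem isPGroup_centralizer (d : H44.TwoClassData χ N g₀) (hpN : IsPGroup p N) :
    IsPGroup p (Subgroup.centralizer (N : Set G)) := by
  haveI := Fintype.ofFinite G
  obtain ⟨P, hP⟩ := d.exists_sylow_centralizer hpN (mem_of_data d) d.ne_one
  exact P.2.to_le (hP ▸ Subgroup.centralizer_le (by simpa using mem_of_data d))

theorem centralizer_eq_pCore [N.Normal] (d : H44.TwoClassData χ N g₀) (hpN : IsPGroup p N) :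
    Subgroup.centralizer (N : Set G) = Cfsg.pCore p G := by
  refine le_antisymm (H19.le_pCore inferInstance (isPGroup_centralizer d hpN)) ?_
  set O := Cfsg.pCore p G
  haveI hOn : O.Normal := H19.pCore_normal p G
  set F : Subgroup G := N ⊓ Subgroup.centralizer (O : Set G) with hF
  have hFne : F ≠ ⊥ := by
    letI : MulDistribMulAction O N :=
      MulDistribMulAction.compHom N ((MulAut.conjNormal (H := N)).comp O.subtype)
    have hpd : p ∣ Nat.card N := by
      obtain ⟨k, hk⟩ := hpN.exists_card_eq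
      haveI := N.nontrivial_iff_ne_bot.mpr d.ne_bot
      rw [hk]
      refine dvd_pow_self p ?_
      rintro rfl
      exact (Finite.one_lt_card (α := N)).ne' (by simpa using hk)
    obtain ⟨x, hx, hx1⟩ := (H19.pCore_isPGroup p).exists_fixed_point_of_prime_dvd_card_of_fixed_point
      N hpd (show (1 : N) ∈ MulAction.fixedPoints O N from fun a => smul_one a)
    intro hbot
    have hxF : (x : G) ∈ F := by
      refine ⟨x.2, Subgroup.mem_centralizer_iff.mpr fun o ho => ?_⟩
      have h := congrArg Subtype.val (hx ⟨o, ho⟩)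
      change o * (x : G) * o⁻¹ = x at h
      exact mul_inv_eq_iff_eq_mul.mp h
    rw [hbot, Subgroup.mem_bot] at hxF
    exact hx1 (Subtype.ext hxF.symm)
  have hle : N ≤ F := d.le_of_normal F hFne
  exact fun o ho => Subgroup.mem_centralizer_iff.mpr fun n hn =>
    (Subgroup.mem_centralizer_iff.mp (hle hn).2 o ho).symm

theorem card_eq_mul (d : H44.TwoClassData χ N g₀) :
    Nat.card G = (Nat.card N - 1) * Nat.card (Subgroup.centralizer ({g₀} : Set G)) := by
  classical
  haveI := Fintype.ofFinite G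
  rw [← H44.card_isConj_mul_card_centralizer g₀]
  congr 1
  rw [Nat.card_congr (Equiv.subtypeEquivRight (p := IsConj g₀) (q := fun h => h ∈ N ∧ h ≠ 1)
    fun h => ⟨fun hh => ⟨(d.mem_iff h).mpr (Or.inr hh),
      fun e => d.ne_one (isConj_one_left.mp (e ▸ hh))⟩,
      fun hh => ((d.mem_iff h).mp hh.1).resolve_left hh.2⟩)]
  rw [Nat.card_eq_fintype_card, Nat.card_eq_fintype_card, Fintype.card_subtype,
    Fintype.card_subtype]
  rw [show Finset.univ.filter (fun h : G => h ∈ N ∧ h ≠ 1) =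
    (Finset.univ.filter fun h : G => h ∈ N).erase 1 by ext; simp [and_comm],
    Finset.card_erase_of_mem (Finset.mem_filter.mpr ⟨Finset.mem_univ _, N.one_mem⟩)]

theorem two_le_card (d : H44.TwoClassData χ N g₀) : 2 ≤ Nat.card N := by
  haveI := N.nontrivial_iff_ne_bot.mpr d.ne_bot
  exact Finite.one_lt_card

theorem coprime_card_sub_one (d : H44.TwoClassData χ N g₀) (hpN : IsPGroup p N) :
    ¬ p ∣ Nat.card N - 1 := by
  obtain ⟨m, hm⟩ := hpN.exists_card_eq
  have h2 := two_le_card d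
  rw [hm] at h2 ⊢
  intro h
  have hpm : p ∣ p ^ m := by
    refine dvd_pow_self p ?_
    rintro rfl
    simp at h2
  have h1 : p ∣ p ^ m - (p ^ m - 1) := Nat.dvd_sub hpm h
  rw [show p ^ m - (p ^ m - 1) = 1 by omega, Nat.dvd_one] at h1
  exact (Fact.out : p.Prime).ne_one h1

end Cfsg.Agent.H20.TwoClass
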