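import Mathlib
import Cfsg.Agent.H44.TwoClass
import Cfsg.Agent.H19.Cores
import Cfsg.Agent.H28.BaerSuzuki
import Cfsg.Agent.H28.Dihedral

/-!
# Characters nonzero on two classes whose support is the whole `p`-core

If the centralizer orders outside the abelian normal `p`-subgroup `N = O_p(G)` are those of the
quotient and elements of order prime to `p` act fixed-point-freely on `N`, then `p` does not
divide `|G : N|`.
-/

set_option autoImplicit false

namespace Cfsg.Agent.H20.TwoClass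

variable {G : Type*} [Group G] [Finite G] {N : Subgroup G} [N.Normal]

/-- An element inducing a fixed-point-free map on `N` is conjugate under `N` to all of its
coset. -/
theorem exists_conj_in_coset {z : G} (hfix : ∀ n ∈ N, z * n = n * z → n = 1) :
    ∀ n ∈ N, ∃ m ∈ N, m * z * m⁻¹ = z * n := by
  let f : N → N := fun m => ⟨z⁻¹ * (m : G) * z * (m : G)⁻¹, N.mul_mem
    (by simpa using Subgroup.Normal.conj_mem ‹N.Normal› _ m.2 z⁻¹) (N.inv_mem m.2)⟩
  have hf : Function.Injective f := by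
    intro a b hab
    have h : z⁻¹ * (a : G) * z * (a : G)⁻¹ = z⁻¹ * (b : G) * z * (b : G)⁻¹ :=
      congrArg Subtype.val hab
    have h' : (a : G) * z * (a : G)⁻¹ = (b : G) * z * (b : G)⁻¹ := by
      simpa [mul_assoc] using h
    have hc : z * ((a : G)⁻¹ * b) = ((a : G)⁻¹ * b) * z :=
      calc z * ((a : G)⁻¹ * b) = (a : G)⁻¹ * ((a : G) * z * (a : G)⁻¹) * b := by group
        _ = ((a : G)⁻¹ * b) * z := by rw [h']; group
    exact Subtype.ext (inv_mul_eq_one.mp (hfix _ (N.mul_mem (N.inv_mem a.2) b.2) hc))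
  intro n hn
  obtain ⟨m, hm⟩ := (Finite.injective_iff_surjective.mp hf) ⟨n, hn⟩
  refine ⟨m, m.2, ?_⟩
  have h : z⁻¹ * (m : G) * z * (m : G)⁻¹ = n := congrArg Subtype.val hm
  rw [← h]
  group

/-- Equal centralizer orders in `G` and `G ⧸ N` mean that the whole coset is one class. -/
theorem exists_conj_of_card_centralizer {g : G}
    (hcard : Nat.card (Subgroup.centralizer ({g} : Set G)) =
      Nat.card (Subgroup.centralizer ({(g : G ⧸ N)} : Set (G ⧸ N)))) :
    ∀ n ∈ N, ∃ t : G, t * g * t⁻¹ = g * n := by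
  classical
  set A : Set G := {h | IsConj g h}
  set B : Set G := QuotientGroup.mk ⁻¹' {q : G ⧸ N | IsConj (g : G ⧸ N) q} with hB
  have hsub : A ⊆ B := fun h hh => (QuotientGroup.mk' N).map_isConj hh
  have hA : A.ncard = Nat.card {h : G // IsConj g h} := (Nat.card_coe_set_eq A).symm
  have hBc : B.ncard = Nat.card N * Nat.card {q : G ⧸ N // IsConj (g : G ⧸ N) q} := by
    rw [← Nat.card_coe_set_eq, Nat.card_congr (QuotientGroup.preimageMkEquivSubgroupProdSet N _),
      Nat.card_prod]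
    rfl
  have h1 := H44.card_isConj_mul_card_centralizer g
  have h2 := H44.card_isConj_mul_card_centralizer (g : G ⧸ N)
  have heq : A = B := by
    refine Set.eq_of_subset_of_ncard_le hsub ?_ (Set.toFinite _)
    refine le_of_eq ?_
    have hmul : B.ncard * Nat.card (Subgroup.centralizer ({g} : Set G)) =
        A.ncard * Nat.card (Subgroup.centralizer ({g} : Set G)) := by
      rw [hA, h1, hBc, hcard, mul_assoc, h2, mul_comm, ← Subgroup.card_eq_card_quotient_mul_card_subgroup]
    exact Nat.eq_of_mul_eq_mul_right Nat.card_pos hmul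
  intro n hn
  have hmem : g * n ∈ B := by
    show IsConj (g : G ⧸ N) ((g * n : G) : G ⧸ N)
    rw [QuotientGroup.mk_mul_of_mem g hn]
  rw [← heq] at hmem
  exact isConj_iff.mp hmem

variable {p : ℕ} [Fact p.Prime]

/-- The odd case: an involution inverts `N`, so its centralizer is a complement, and an element
of order `p` there has too large a centralizer. -/
theorem not_dvd_index_odd (hp2 : p ≠ 2) (hpN : IsPGroup p N) (hN1 : N ≠ ⊥)
    (hcomm : ∀ a ∈ N, ∀ b ∈ N, a * b = b * a)
    (hcard : ∀ g : G, g ∉ N → Nat.card (Subgroup.centralizer ({g} : Set G)) =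
      Nat.card (Subgroup.centralizer ({(g : G ⧸ N)} : Set (G ⧸ N))))
    (hfpf : ∀ g : G, ¬ p ∣ orderOf g → g ≠ 1 → ∀ n ∈ N, g * n = n * g → n = 1)
    (hCN : ∀ g : G, (∀ n ∈ N, g * n = n * g) → g ∈ N) (heven : 2 ∣ Nat.card G) :
    ¬ p ∣ Nat.card (G ⧸ N) := by
  intro hdvd
  have hp : p.Prime := Fact.out
  obtain ⟨z, hz⟩ := exists_prime_orderOf_dvd_card' (G := G) 2 heven
  have hz1 : z ≠ 1 := fun h => by rw [h, orderOf_one] at hz; omega
  have hzp : ¬ p ∣ orderOf z := by
    rw [hz]
    exact fun h => hp2 ((Nat.prime_dvd_prime_iff_eq hp Nat.prime_two).mp h)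
  have hzz : z * z = 1 := H28.mul_self_of_orderOf_two hz
  -- `z` inverts `N`
  have hinv : ∀ n ∈ N, z * n * z = n⁻¹ := by
    intro n hn
    have hc : z * n * z ∈ N := by
      simpa [inv_eq_of_mul_eq_one_right hzz] using Subgroup.Normal.conj_mem ‹N.Normal› n hn z
    have hfix : z * (z * n * z * n) = (z * n * z * n) * z :=
      calc z * (z * n * z * n) = (z * z) * (n * (z * n)) := by group
        _ = n * (z * n) := by rw [hzz, one_mul]
        _ = (n * (z * n * z)) * z := by
          rw [show (n * (z * n * z)) * z = n * (z * n) * (z * z) by group, hzz, mul_one]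
        _ = (z * n * z * n) * z := by rw [hcomm n hn _ hc]
    exact eq_inv_of_mul_eq_one_left (hfpf z hzp hz1 _ (N.mul_mem hc hn) hfix)
  -- its image is central, so its centralizer covers the quotient
  have hzfix : ∀ n ∈ N, z * n = n * z → n = 1 := hfpf z hzp hz1
  have hcover : ∀ t : G, ∃ n ∈ N, ∃ s : G, z * s = s * z ∧ t = n * s := by
    intro t
    have h1 : z⁻¹ * (t * z * t⁻¹) ∈ N := by
      refine hCN _ fun n hn => ?_
      have ht : t⁻¹ * n * t ∈ N := by
        simpa using Subgroup.Normal.conj_mem ‹N.Normal› n hn t⁻¹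
      have hzinv : z⁻¹ = z := inv_eq_of_mul_eq_one_right hzz
      have h2 : (t * z * t⁻¹) * n * (t * z * t⁻¹)⁻¹ = n⁻¹ := by
        calc (t * z * t⁻¹) * n * (t * z * t⁻¹)⁻¹ = t * (z * (t⁻¹ * n * t) * z⁻¹) * t⁻¹ := by group
          _ = n⁻¹ := by rw [hzinv, hinv _ ht]; group
      have h3 : z⁻¹ * n⁻¹ * z = n := by
        rw [hzinv, hinv _ (N.inv_mem hn), inv_inv]
      calc z⁻¹ * (t * z * t⁻¹) * n
          = (z⁻¹ * ((t * z * t⁻¹) * n * (t * z * t⁻¹)⁻¹) * z) * (z⁻¹ * (t * z * t⁻¹)) := by group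
        _ = n * (z⁻¹ * (t * z * t⁻¹)) := by rw [h2, h3]
    obtain ⟨m, hm, hmz⟩ := exists_conj_in_coset hzfix _ h1
    rw [mul_inv_cancel_left] at hmz
    refine ⟨m, hm, m⁻¹ * t, ?_, by group⟩
    calc z * (m⁻¹ * t) = m⁻¹ * (m * z * m⁻¹) * t := by group
      _ = m⁻¹ * t * z := by rw [hmz]; group
  -- an element of order `p` in that centralizer
  set C := Subgroup.centralizer ({z} : Set G) with hC
  have hCN1 : ∀ n ∈ N, n ∈ C → n = 1 := fun n hn hnC =>
    hzfix n hn (Subgroup.mem_centralizer_singleton_iff.mp hnC).symm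
  let φ : C →* G ⧸ N := (QuotientGroup.mk' N).comp C.subtype
  have hφ : Function.Bijective φ := by
    refine ⟨(injective_iff_map_eq_one φ).mpr fun s hs => Subtype.ext (hCN1 _
      ((QuotientGroup.eq_one_iff _).mp hs) s.2), fun q => ?_⟩
    induction q using QuotientGroup.induction_on with
    | H t =>
      obtain ⟨n, hn, s, hs, rfl⟩ := hcover t
      refine ⟨⟨s, Subgroup.mem_centralizer_singleton_iff.mpr hs.symm⟩, ?_⟩
      show (s : G ⧸ N) = ((n * s : G) : G ⧸ N)
      rw [QuotientGroup.mk_mul, (QuotientGroup.eq_one_iff n).mpr hn, one_mul]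
  obtain ⟨⟨h, hhC⟩, hh⟩ := exists_prime_orderOf_dvd_card' (G := C) p
    (by rw [Nat.card_eq_of_bijective φ hφ]; exact hdvd)
  rw [← Subgroup.orderOf_coe] at hh
  simp only at hh
  have hhN : h ∉ N := fun hn => by
    rw [hCN1 h hn hhC, orderOf_one] at hh
    exact hp.ne_one hh.symm
  -- its centralizer maps onto that of its image within `C`
  have hle : Nat.card (Subgroup.centralizer ({(h : G ⧸ N)} : Set (G ⧸ N))) ≤
      Nat.card (C ⊓ Subgroup.centralizer ({h} : Set G) : Subgroup G) := by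
    refine Nat.card_le_card_of_surjective
      (fun s => (⟨φ ⟨s.1, (Subgroup.mem_inf.mp s.2).1⟩, ?_⟩ :
        Subgroup.centralizer ({(h : G ⧸ N)} : Set (G ⧸ N)))) ?_
    · rw [Subgroup.mem_centralizer_singleton_iff]
      show ((s.1 : G) : G ⧸ N) * _ = _ * ((s.1 : G) : G ⧸ N)
      rw [← QuotientGroup.mk_mul, ← QuotientGroup.mk_mul,
        Subgroup.mem_centralizer_singleton_iff.mp (Subgroup.mem_inf.mp s.2).2]
    · rintro ⟨q, hq⟩
      obtain ⟨s, hs⟩ := hφ.2 q
      refine ⟨⟨s, s.2, Subgroup.mem_centralizer_singleton_iff.mpr ?_⟩, Subtype.ext hs⟩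
      have h1 : φ (s * ⟨h, hhC⟩) = φ (⟨h, hhC⟩ * s) := by
        rw [map_mul, map_mul, hs]
        exact Subgroup.mem_centralizer_singleton_iff.mp hq
      exact congrArg Subtype.val (hφ.1 h1)
  -- and a nontrivial fixed point of `h` in `N`
  obtain ⟨x, hxN, hx1, hxh⟩ : ∃ x ∈ N, x ≠ 1 ∧ h * x = x * h := by
    letI : MulDistribMulAction (Subgroup.zpowers h) N :=
      MulDistribMulAction.compHom N ((MulAut.conjNormal (H := N)).comp (Subgroup.zpowers h).subtype)
    have hhp : IsPGroup p (Subgroup.zpowers h) :=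
      IsPGroup.of_card (n := 1) (by rw [Nat.card_zpowers, hh, pow_one])
    haveI := N.nontrivial_iff_ne_bot.mpr hN1
    obtain ⟨k, hk⟩ := hpN.exists_card_eq
    have hpd : p ∣ Nat.card N := by
      rw [hk]
      refine dvd_pow_self p ?_
      rintro rfl
      exact (Finite.one_lt_card (α := N)).ne' (by simpa using hk)
    obtain ⟨x, hx, hx1⟩ := hhp.exists_fixed_point_of_prime_dvd_card_of_fixed_point N hpd
      (show (1 : N) ∈ MulAction.fixedPoints _ N from fun a => smul_one a)
    refine ⟨x, x.2, fun e => hx1 (Subtype.ext e.symm), ?_⟩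
    have := congrArg Subtype.val (hx ⟨h, Subgroup.mem_zpowers h⟩)
    change h * (x : G) * h⁻¹ = x at this
    exact mul_inv_eq_iff_eq_mul.mp this
  have hlt : (C ⊓ Subgroup.centralizer ({h} : Set G) : Subgroup G) <
      Subgroup.centralizer ({h} : Set G) := by
    refine lt_of_le_of_ne inf_le_right fun e => hx1 (hCN1 x hxN ?_)
    exact (Subgroup.mem_inf.mp (e.ge (Subgroup.mem_centralizer_singleton_iff.mpr hxh.symm))).1
  have := Set.ncard_lt_ncard (SetLike.coe_ssubset_coe.mpr hlt) (Set.toFinite _)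
  rw [← Nat.card_coe_set_eq, ← Nat.card_coe_set_eq] at this
  exact absurd (this.trans_le ((hcard h hhN).le.trans hle)) (lt_irrefl _)

/-- The even case: no involution lies outside `N`, so two involutions of the quotient always
generate a `2`-group. -/
theorem not_dvd_index_two
    (hcard : ∀ g : G, g ∉ N → Nat.card (Subgroup.centralizer ({g} : Set G)) =
      Nat.card (Subgroup.centralizer ({(g : G ⧸ N)} : Set (G ⧸ N))))
    (hfpf : ∀ g : G, ¬ 2 ∣ orderOf g → g ≠ 1 → ∀ n ∈ N, g * n = n * g → n = 1)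
    (hCN : ∀ g : G, (∀ n ∈ N, g * n = n * g) → g ∈ N)
    (hexp : ∀ n ∈ N, n * n = 1) (hpN : IsPGroup 2 N)
    (hcore : Cfsg.pCore 2 G ≤ N) :
    ¬ 2 ∣ Nat.card (G ⧸ N) := by
  intro hdvd
  have hnoinv : ∀ u : G, u ∉ N → u * u ≠ 1 := by
    intro u hu huu
    refine hu (hCN u fun n hn => ?_)
    obtain ⟨t, ht⟩ := exists_conj_of_card_centralizer (hcard u hu) n hn
    have h1 : (u * n) * (u * n) = 1 := by
      rw [← ht, show t * u * t⁻¹ * (t * u * t⁻¹) = t * (u * u) * t⁻¹ by group, huu]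
      group
    calc u * n = (u * n)⁻¹ := (inv_eq_of_mul_eq_one_right h1).symm
      _ = n * u := by
        rw [mul_inv_rev, inv_eq_of_mul_eq_one_right huu, inv_eq_of_mul_eq_one_right (hexp n hn)]
  obtain ⟨ub, hub⟩ := exists_prime_orderOf_dvd_card' (G := G ⧸ N) 2 hdvd
  have hub2 : ub * ub = 1 := H28.mul_self_of_orderOf_two hub
  have key : ∀ vb : G ⧸ N, vb * vb = 1 →
      IsPGroup 2 (Subgroup.closure ({ub, vb} : Set (G ⧸ N))) := by
    intro vb hvb
    have hpow : ∃ a, (ub * vb) ^ 2 ^ a = 1 := by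
      obtain ⟨u, rfl⟩ := QuotientGroup.mk_surjective ub
      obtain ⟨v, rfl⟩ := QuotientGroup.mk_surjective vb
      obtain ⟨a, b, hb, hab⟩ := Nat.exists_eq_two_pow_mul_odd (orderOf_pos (u * v)).ne'
      refine ⟨a, ?_⟩
      rw [← QuotientGroup.mk_mul, ← QuotientGroup.mk_pow, QuotientGroup.eq_one_iff]
      set z := (u * v) ^ 2 ^ a with hz
      by_contra hzN
      have hz1 : z ≠ 1 := fun h => hzN (h ▸ N.one_mem)
      have hzo : orderOf z = b := by
        rw [hz, orderOf_pow_of_dvd (by positivity) (Dvd.intro _ hab.symm), hab]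
        exact Nat.mul_div_cancel_left b (by positivity)
      have hz2 : ¬ 2 ∣ orderOf z := by
        rw [hzo]
        exact fun h => (Nat.not_even_iff_odd.mpr hb) (even_iff_two_dvd.mpr h)
      have hzfix := hfpf z hz2 hz1
      -- `u` inverts `z` modulo `N`
      have hmod : z * (u * z * u⁻¹) ∈ N := by
        rw [← QuotientGroup.eq_one_iff, hz, QuotientGroup.mk_mul, QuotientGroup.mk_mul,
          QuotientGroup.mk_mul, QuotientGroup.mk_pow, QuotientGroup.mk_inv, QuotientGroup.mk_mul]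
        set x := (u : G ⧸ N)
        set y := (v : G ⧸ N)
        have hx : x⁻¹ = x := inv_eq_of_mul_eq_one_right hub2
        have h3 : x * (x * y) * x⁻¹ = (x * y)⁻¹ := by
          rw [hx]
          exact H28.conj_mul_eq_inv hub2 hvb
        rw [← conj_pow, h3, inv_pow, mul_inv_cancel]
      have hzfix' : ∀ n ∈ N, z⁻¹ * n = n * z⁻¹ → n = 1 := fun n hn h => hzfix n hn (by
        calc z * n = z * (n * z⁻¹) * z := by group
          _ = n * z := by rw [← h]; group)
      obtain ⟨m, hm, hmz⟩ := exists_conj_in_coset hzfix' _ hmod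
      rw [inv_mul_cancel_left] at hmz
      -- so a suitable lift of `ub` inverts `z`
      set w := m⁻¹ * u with hw
      have hwz : w * z * w⁻¹ = z⁻¹ := by
        rw [hw, show m⁻¹ * u * z * (m⁻¹ * u)⁻¹ = m⁻¹ * (u * z * u⁻¹) * m by group, ← hmz]
        group
      have hwu : (w : G ⧸ N) = (u : G ⧸ N) := by
        rw [hw, QuotientGroup.mk_mul, QuotientGroup.mk_inv, (QuotientGroup.eq_one_iff m).mpr hm,
          inv_one, one_mul]
      have hwN : w * w ∈ N := by
        rw [← QuotientGroup.eq_one_iff, QuotientGroup.mk_mul, hwu]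
        exact hub2
      have hcom : z * (w * w) = (w * w) * z := by
        have h4 : w * w * z * (w * w)⁻¹ = z := by
          rw [show w * w * z * (w * w)⁻¹ = w * (w * z * w⁻¹) * w⁻¹ by group, hwz]
          rw [show w * z⁻¹ * w⁻¹ = (w * z * w⁻¹)⁻¹ by group, hwz, inv_inv]
        exact (mul_inv_eq_iff_eq_mul.mp h4).symm
      refine hnoinv w (fun hwmem => ?_) (hzfix _ hwN hcom)
      rw [← QuotientGroup.eq_one_iff, hwu] at hwmem
      rw [hwmem, orderOf_one] at hub
      omega
    obtain ⟨a, ha⟩ := hpow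
    rintro ⟨d, hd⟩
    obtain ⟨k, rfl | rfl⟩ := (H28.mem_closure_pair_iff hub2 hvb).mp hd
    · refine ⟨a, Subtype.ext ?_⟩
      show ((ub * vb) ^ k) ^ 2 ^ a = 1
      rw [← zpow_natCast, ← zpow_mul, mul_comm, zpow_mul, zpow_natCast, ha, one_zpow]
    · refine ⟨1, Subtype.ext ?_⟩
      show (ub * (ub * vb) ^ k) ^ 2 ^ 1 = 1
      rw [pow_one, pow_two]
      exact H28.mul_zpow_mul_self hub2 hvb k
  obtain ⟨M, hMn, hMp, hMu⟩ := H28.baer_suzuki_element (p := 2) ub (fun g => key _ (by
    rw [show g * ub * g⁻¹ * (g * ub * g⁻¹) = g * (ub * ub) * g⁻¹ by group, hub2]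
    group))
  obtain ⟨u, rfl⟩ := QuotientGroup.mk_surjective ub
  have hpre : IsPGroup 2 (M.comap (QuotientGroup.mk' N)) := by
    refine hMp.comap_of_ker_isPGroup _ ?_
    rwa [QuotientGroup.ker_mk']
  have := hcore (H19.le_pCore (hMn.comap _) hpre (show u ∈ M.comap (QuotientGroup.mk' N) from hMu))
  rw [← QuotientGroup.eq_one_iff] at this
  rw [this, orderOf_one] at hub
  omega

end Cfsg.Agent.H20.TwoClass
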