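import Cfsg.Agent.H80.YoshidaTransfer
import Cfsg.Prelude.Def_Transfer
import Mathlib.GroupTheory.Transfer
import Mathlib.GroupTheory.Focal

/-!
# Transfer into the normalizer of a weakly closed subgroup

If every iterated commutator `[x, z; p - 1]` lying in a maximal subgroup of the weakly closed `W`
lies in the Frattini subgroup of that maximal subgroup, then `N(W)` controls transfer.
-/

set_option autoImplicit false

namespace Cfsg.Agent.H20.WCTransfer

open Finset MulAction
open scoped Pointwise commutatorElement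

variable {G : Type*} [Group G] [Finite G] {p : ℕ} [Fact p.Prime]

/-- The summand of the transfer at a coset. -/
noncomputable def term {N : Subgroup G} {A : Type*} [CommGroup A] (ϕ : N →* A) (g : G) (t : G ⧸ N) : A :=
  ϕ ⟨(g • t).out⁻¹ * (g * t.out), QuotientGroup.eq.mp (by
    rw [QuotientGroup.out_eq']
    conv_lhs => rw [← QuotientGroup.out_eq' t]
    rfl)⟩

omit [Finite G] in
/-- The summands form a cocycle. -/
theorem term_mul {N : Subgroup G} {A : Type*} [CommGroup A] (ϕ : N →* A) (g h : G) (t : G ⧸ N) :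
    term ϕ (g * h) t = term ϕ g (h • t) * term ϕ h t := by
  rw [term, term, term, ← map_mul]
  refine congrArg ϕ (Subtype.ext ?_)
  show ((g * h) • t).out⁻¹ * (g * h * t.out) =
    (g • h • t).out⁻¹ * (g * (h • t).out) * ((h • t).out⁻¹ * (h * t.out))
  rw [mul_smul]
  group

/-- The transfer is the product of the summands. -/
theorem transfer_eq {N : Subgroup G} [Fintype (G ⧸ N)] {A : Type*} [CommGroup A] (ϕ : N →* A)
    (g : G) : MonoidHom.transfer ϕ g = ∏ t : G ⧸ N, term ϕ g t := by
  obtain rfl : ‹Fintype (G ⧸ N)› = N.fintypeQuotientOfFiniteIndex := Subsingleton.elim _ _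
  letI := N.fintypeQuotientOfFiniteIndex
  let T : N.LeftTransversal :=
    ⟨Set.range fun q : G ⧸ N => q.out, Subgroup.isComplement_range_left fun q => q.out_eq'⟩
  rw [MonoidHom.transfer_def ϕ T g]
  have hT : ∀ q : G ⧸ N, (T.2.leftQuotientEquiv q : G) = q.out := fun q =>
    Subgroup.IsComplement.leftQuotientEquiv_apply (f := fun q : G ⧸ N => q.out) (fun q => q.out_eq') q
  refine (Fintype.prod_equiv (MulAction.toPerm g) _ _ fun t => ?_).symm
  refine congrArg ϕ (Subtype.ext ?_)
  show (g • t).out⁻¹ * (g * t.out) = (T.2.leftQuotientEquiv (g • t) : G)⁻¹ *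
    ((g • T).2.leftQuotientEquiv (g • t) : G)
  rw [Subgroup.smul_apply_eq_smul_apply_inv_smul, inv_smul_smul, hT, hT, smul_eq_mul]

variable (S : Sylow p G) {W : Subgroup G}

omit [Finite G] [Fact p.Prime] in
/-- A Sylow subgroup normalizes the subgroups weakly closed in it. -/
theorem sylow_le_normalizer (hW : Cfsg.IsWeaklyClosed W (S : Subgroup G)) :
    (S : Subgroup G) ≤ Subgroup.normalizer (W : Set G) := by
  have key : ∀ g ∈ (S : Subgroup G), ∀ w ∈ W, g * w * g⁻¹ ∈ W := fun g hg w hw => by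
    rw [← hW.2 g (by
      rintro _ ⟨v, hv, rfl⟩
      exact mul_mem (mul_mem hg (hW.1 hv)) (inv_mem hg))]
    exact ⟨w, hw, rfl⟩
  refine fun g hg => Subgroup.mem_normalizer_iff.mpr fun w => ⟨key g hg w, fun h => ?_⟩
  have := key g⁻¹ (inv_mem hg) _ h
  simpa [mul_assoc] using this

/-- `W` fixes only the trivial coset of its normalizer. -/
theorem eq_base_of_fixed (hW : Cfsg.IsWeaklyClosed W (S : Subgroup G))
    (t : G ⧸ Subgroup.normalizer (W : Set G)) (h : ∀ w ∈ W, w • t = t) :
    t = ((1 : G) : G ⧸ Subgroup.normalizer (W : Set G)) := by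
  obtain ⟨g, rfl⟩ := QuotientGroup.mk_surjective t
  set N := Subgroup.normalizer (W : Set G)
  have hSN := sylow_le_normalizer S hW
  have hin : W.map (MulAut.conj g⁻¹).toMonoidHom ≤ N := by
    rintro _ ⟨w, hw, rfl⟩
    have h1 : ((g⁻¹ * (w * g) : G)) ∈ N := QuotientGroup.eq.mp (h w hw).symm
    simpa [mul_assoc] using h1
  have hp : IsPGroup p (W.map (MulAut.conj g⁻¹).toMonoidHom) := (S.2.to_le hW.1).map _
  obtain ⟨R, hR⟩ := (hp.comap_of_injective N.subtype N.subtype_injective).exists_le_sylow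
  obtain ⟨n, hn⟩ := MulAction.exists_smul_eq N R (S.subtype hSN)
  have h2 : W.map (MulAut.conj ((n : G) * g⁻¹)).toMonoidHom ≤ (S : Subgroup G) := by
    rintro _ ⟨w, hw, rfl⟩
    have h3 : (⟨g⁻¹ * w * g, by simpa using hin ⟨w, hw, rfl⟩⟩ : N) ∈ (R : Subgroup N) :=
      hR ⟨w, hw, by simp⟩
    have h4 : n * ⟨g⁻¹ * w * g, _⟩ * n⁻¹ ∈ ((n • R : Sylow p N) : Subgroup N) :=
      Subgroup.smul_mem_pointwise_smul _ (MulAut.conj n) _ h3
    rw [hn] at h4
    simpa [Subgroup.mem_subgroupOf, mul_assoc] using h4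
  have h5 : (n : G) * g⁻¹ ∈ N := by
    refine Subgroup.mem_normalizer_iff.mpr fun w => ⟨fun hw => ?_, fun hw => ?_⟩
    · rw [← hW.2 _ h2]
      exact ⟨w, hw, rfl⟩
    · rw [← hW.2 _ h2] at hw
      obtain ⟨v, hv, hve⟩ := hw
      simp at hve
      have hvw : v = w := by simpa [mul_assoc] using hve
      rwa [hvw] at hv
  refine QuotientGroup.eq.mpr ?_
  have h6 : g⁻¹ ∈ N := by simpa using mul_mem (inv_mem n.2) h5
  simpa using h6

/-- The iterated commutator of an element of an index `p` subgroup, seen by a character. -/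
theorem hom_iterate {M : Type*} [Group M] {H : Subgroup M} [H.Normal]
    (μ : H →* Multiplicative (ZMod p)) (z : M) (x : M) (hx : x ∈ H) :
    ∀ (hc : (fun y : M => y⁻¹ * z⁻¹ * y * z)^[p - 1] x ∈ H),
    μ ⟨_, hc⟩ = ∏ i ∈ range p, μ ⟨(z ^ i)⁻¹ * x * z ^ i,
      by simpa using ‹H.Normal›.conj_mem x hx (z ^ i)⁻¹⟩ := by
  classical
  have hp := (Fact.out : p.Prime)
  have hmem : ∀ (i : ℕ) (y : M), y ∈ H → (z ^ i)⁻¹ * y * z ^ i ∈ H := fun i y hy => by
    simpa using ‹H.Normal›.conj_mem y hy (z ^ i)⁻¹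
  let c : M → ℕ → ZMod p := fun y i =>
    if hy : y ∈ H then (μ ⟨_, hmem i y hy⟩).toAdd else 0
  set f := fun y : M => y⁻¹ * z⁻¹ * y * z
  have hit : ∀ k, f^[k] x ∈ H ∧ c (f^[k] x) = (fwdDiff 1)^[k] (c x) := by
    intro k
    induction k with
    | zero => exact ⟨hx, rfl⟩
    | succ k ih =>
      obtain ⟨hy, hce⟩ := ih
      rw [Function.iterate_succ_apply', Function.iterate_succ_apply', ← hce]
      set y := f^[k] x
      have h1 : f y ∈ H := by
        have := mul_mem (inv_mem hy) (hmem 1 y hy)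
        simpa [f, mul_assoc] using this
      refine ⟨h1, funext fun i => ?_⟩
      simp only [c, fwdDiff, hy, h1, dif_pos]
      rw [eq_sub_iff_add_eq, add_comm, ← toAdd_mul, ← map_mul]
      refine congrArg Multiplicative.toAdd (congrArg μ (Subtype.ext ?_))
      simp only [f, Subgroup.coe_mul, pow_succ']
      group
  intro hc
  apply Multiplicative.toAdd.injective
  have h0 : (μ ⟨_, hc⟩).toAdd = c (f^[p - 1] x) 0 := by
    simp only [c, hc, dif_pos]
    exact congrArg Multiplicative.toAdd (congrArg μ (Subtype.ext (by simp [f])))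
  rw [h0, (hit (p - 1)).2, fwdDiff_iter_eq_sum_shift, toAdd_prod,
    show p - 1 + 1 = p from Nat.sub_add_cancel hp.one_le]
  refine Finset.sum_congr rfl fun i hi => ?_
  have hip := Finset.mem_range.mp hi
  have hb : ∀ j, j < p → (((p - 1).choose j : ℕ) : ZMod p) = (-1) ^ j := by
    intro j
    induction j with
    | zero => simp
    | succ j ih =>
      intro hj
      have h1 := Nat.choose_succ_succ (p - 1) j
      rw [Nat.succ_eq_add_one, Nat.sub_add_cancel hp.one_le] at h1
      have h2 : ((p.choose (j + 1) : ℕ) : ZMod p) = 0 :=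
        (CharP.cast_eq_zero_iff (ZMod p) p _).mpr (hp.dvd_choose_self (by omega) hj)
      rw [h1, Nat.cast_add, ih (by omega)] at h2
      rw [eq_neg_of_add_eq_zero_right h2, pow_succ]
      ring
  rw [zsmul_eq_mul]
  push_cast
  rw [hb i hip, ← pow_add, Nat.sub_add_cancel (by omega : i ≤ p - 1)]
  have hone : ((-1 : ZMod p)) ^ (p - 1) = 1 := ZMod.pow_card_sub_one_eq_one (by simp)
  rw [hone, one_mul, smul_eq_mul, mul_one, zero_add]
  simp only [c, hx, dif_pos]

/-- The negation of the conclusion of the theorem. -/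
def Neg (W : Subgroup G) : Prop :=
  ∀ x ∈ (S : Subgroup G), ∀ z ∈ W, ∀ W₀ : Subgroup W, IsCoatom W₀ →
    (fun y : G => y⁻¹ * z⁻¹ * y * z)^[p - 1] x ∈ W₀.map W.subtype →
    (fun y : G => y⁻¹ * z⁻¹ * y * z)^[p - 1] x ∈ ((frattini ↥W₀).map W₀.subtype).map W.subtype

/-- Only the trivial coset contributes to the transfer. -/
theorem transfer_eq_self (hW : Cfsg.IsWeaklyClosed W (S : Subgroup G)) (hneg : Neg S W)
    [Fintype (G ⧸ Subgroup.normalizer (W : Set G))]
    (lam : Subgroup.normalizer (W : Set G) →* Multiplicative (ZMod p)) (x : G)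
    (hx : x ∈ (S : Subgroup G))
    (hsmall : ∀ (k : ℕ) (g : G) (h : g⁻¹ * x ^ k * g ∈ (S : Subgroup G)), p ∣ k →
      lam ⟨_, sylow_le_normalizer S hW h⟩ = 1) :
    MonoidHom.transfer lam x = lam ⟨x, sylow_le_normalizer S hW hx⟩ := by
  classical
  have hp := (Fact.out : p.Prime)
  let N := Subgroup.normalizer (W : Set G)
  have hSN := sylow_le_normalizer S hW
  obtain ⟨e, he⟩ := S.2 ⟨x, hx⟩
  have hxe : x ^ p ^ e = 1 := congrArg Subtype.val he
  have hlong : ∀ U : Finset (G ⧸ N), (∀ t, t ∈ U ↔ x • t ∈ U) → (∀ t ∈ U, x • t ≠ t) →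
      ∏ t ∈ U, term lam x t = 1 := by
    intro U hU hne
    refine H80.Yoshida.prod_cocycle_orbit (MulAction.toPerm x) (term lam x) U hU fun t ht k hk hkt hmin => ?_
    have hpow : ∀ (j : ℕ) t, ((MulAction.toPerm x : Equiv.Perm (G ⧸ N)) ^ j) t = x ^ j • t := by
      intro j
      induction j with
      | zero => simp
      | succ j ihj => intro t; rw [pow_succ', Equiv.Perm.mul_apply, ihj, MulAction.toPerm_apply,
          pow_succ', mul_smul]
    simp only [hpow] at hkt hmin ⊢
    have hsum : ∀ k, ∏ j ∈ range k, term lam x (x ^ j • t) = term lam (x ^ k) t := by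
      intro k
      induction k with
      | zero =>
        rw [Finset.prod_range_zero, pow_zero]
        have h1 := term_mul lam 1 1 t
        rw [one_mul, one_smul] at h1
        exact (mul_eq_left.mp h1.symm).symm
      | succ k ihk => rw [Finset.prod_range_succ, ihk, pow_succ', term_mul, mul_comm]
    rw [hsum, term]
    have hdvd : k ∣ p ^ e := by
      by_contra hnd
      have hr : 0 < p ^ e % k := Nat.pos_of_ne_zero fun h => hnd (Nat.dvd_of_mod_eq_zero h)
      refine hmin _ hr (Nat.mod_lt _ hk) ?_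
      have hq : ∀ q, (x ^ (k * q)) • t = t := fun q => by
        induction q with
        | zero => simp
        | succ q ihq => rw [Nat.mul_succ, pow_add, mul_smul, hkt, ihq]
      have h0 : (x ^ p ^ e) • t = t := by rw [hxe, one_smul]
      rw [← Nat.mod_add_div (p ^ e) k, pow_add, mul_smul, hq] at h0
      exact h0
    have hpk : p ∣ k := by
      obtain ⟨j, -, rfl⟩ := (Nat.dvd_prime_pow hp).mp hdvd
      rcases j with _ | j
      · exact absurd (by simpa using hkt) (hne t ht)
      · exact dvd_pow_self p (Nat.succ_ne_zero j)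
    set u : N := ⟨(x ^ k • t).out⁻¹ * (x ^ k * t.out), _⟩
    have hu : (u : G) = t.out⁻¹ * x ^ k * t.out := by simp [u, hkt, mul_assoc]
    have hup : u ^ p ^ e = 1 := Subtype.ext (by
      rw [SubmonoidClass.coe_pow, hu]
      have : (t.out⁻¹ * x ^ k * t.out) ^ p ^ e = t.out⁻¹ * (x ^ k) ^ p ^ e * t.out := by
        simpa using conj_pow (a := t.out⁻¹) (b := x ^ k) (i := p ^ e)
      rw [this, ← pow_mul, mul_comm, pow_mul, hxe, one_pow]
      simp)
    have huP : IsPGroup p (Subgroup.zpowers u) := by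
      rintro ⟨_, i, rfl⟩
      refine ⟨e, Subtype.ext ?_⟩
      show (u ^ i) ^ p ^ e = 1
      rw [← zpow_natCast, ← zpow_mul, mul_comm, zpow_mul, zpow_natCast, hup, one_zpow]
    obtain ⟨R, hR⟩ := huP.exists_le_sylow
    obtain ⟨n, hn⟩ := MulAction.exists_smul_eq N R (S.subtype hSN)
    have h4 : n * u * n⁻¹ ∈ ((n • R : Sylow p N) : Subgroup N) :=
      Subgroup.smul_mem_pointwise_smul _ (MulAut.conj n) _ (hR (Subgroup.mem_zpowers u))
    rw [hn] at h4
    have h5 : ((n * u * n⁻¹ : N) : G) = (t.out * (n : G)⁻¹)⁻¹ * x ^ k * (t.out * (n : G)⁻¹) := by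
      simp [hu, mul_assoc]
    have h6 : (t.out * (n : G)⁻¹)⁻¹ * x ^ k * (t.out * (n : G)⁻¹) ∈ (S : Subgroup G) := by
      rw [← h5]; exact h4
    have h7 := hsmall k _ h6 hpk
    have h8 : (⟨_, hSN h6⟩ : N) = n * u * n⁻¹ := Subtype.ext h5.symm
    rw [h8, map_mul, map_mul, map_inv, mul_comm (lam n), mul_inv_cancel_right] at h7
    exact h7
  set T : Subgroup G := W ⊔ Subgroup.zpowers x
  have hTS : T ≤ (S : Subgroup G) := sup_le hW.1 (by simpa using hx)
  haveI : Fintype T := Fintype.ofFinite T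
  have hxT : x ∈ T := Subgroup.mem_sup_right (Subgroup.mem_zpowers x)
  have horbit : ∀ t : G ⧸ N, t ≠ ((1 : G) : G ⧸ N) → x • t = t →
      ∏ u ∈ (Finset.univ.filter fun u => u ∈ MulAction.orbit T t), term lam x u = 1 := by
    intro t ht hxt
    set R := MulAction.stabilizer T t
    have hRtop : R ≠ ⊤ := fun h => ht (eq_base_of_fixed S hW t fun w hw => by
      have h' : (⟨w, Subgroup.mem_sup_left hw⟩ : T) ∈ R := by rw [h]; exact Subgroup.mem_top _
      exact MulAction.mem_stabilizer_iff.mp h')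
    obtain ⟨M, hMn, hMi, hRM⟩ := H80.Yoshida.exists_index_prime (S.2.to_le hTS) hRtop
    obtain ⟨z, hzW, hzM⟩ : ∃ z : T, (z : G) ∈ W ∧ z ∉ M := by
      by_contra hcon
      push Not at hcon
      have hWM : W ≤ M.map T.subtype := fun w hw =>
        ⟨⟨w, Subgroup.mem_sup_left hw⟩, hcon _ hw, rfl⟩
      have hxM : (⟨x, hxT⟩ : T) ∈ M := hRM (MulAction.mem_stabilizer_iff.mpr hxt)
      have hle : T ≤ M.map T.subtype := sup_le hWM (by
        rw [Subgroup.zpowers_le]
        exact ⟨_, hxM, rfl⟩)
      have hM : M = ⊤ := eq_top_iff.mpr fun y _ => by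
        obtain ⟨y', hy', hy'e⟩ := hle y.2
        rwa [← Subtype.ext hy'e]
      rw [hM, Subgroup.index_top] at hMi
      exact hp.one_lt.ne hMi
    set O0 := Finset.univ.filter fun u => ∃ v ∈ M, v • t = u
    have hO0 : ∀ v ∈ M, ∀ f : G ⧸ N → Multiplicative (ZMod p),
        ∏ u ∈ O0, f ((v : T) • u) = ∏ u ∈ O0, f u := by
      intro v hv f
      refine Finset.prod_bij (fun u _ => v • u) ?_ ?_ ?_ (fun _ _ => rfl)
      · intro u hu
        obtain ⟨v', hv', rfl⟩ := (Finset.mem_filter.mp hu).2
        exact Finset.mem_filter.mpr ⟨Finset.mem_univ _, v * v', mul_mem hv hv', mul_smul _ _ _⟩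
      · intro a _ b _ h
        exact MulAction.injective v h
      · intro u hu
        obtain ⟨v', hv', rfl⟩ := (Finset.mem_filter.mp hu).2
        exact ⟨(v⁻¹ * v') • t, Finset.mem_filter.mpr
          ⟨Finset.mem_univ _, _, mul_mem (inv_mem hv) hv', rfl⟩, by rw [mul_smul, smul_inv_smul]⟩
    let μ : M →* Multiplicative (ZMod p) := MonoidHom.mk'
      (fun v => ∏ u ∈ O0, term lam ((v : T) : G) u) fun v w => by
        rw [← hO0 w w.2 (fun u => term lam ((v : T) : G) u), ← Finset.prod_mul_distrib]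
        exact Finset.prod_congr rfl fun u _ => term_mul lam ((v : T) : G) ((w : T) : G) u
    have hxM : (⟨x, hxT⟩ : T) ∈ M := hRM (MulAction.mem_stabilizer_iff.mpr hxt)
    have hi : ∀ i : ℕ, ∏ u ∈ O0, term lam x (z ^ i • u) =
        μ ⟨(z ^ i)⁻¹ * ⟨x, hxT⟩ * z ^ i, by simpa using hMn.conj_mem _ hxM (z ^ i)⁻¹⟩ := by
      intro i
      set v : T := (z ^ i)⁻¹ * ⟨x, hxT⟩ * z ^ i
      have hv : v ∈ M := by simpa [v] using hMn.conj_mem _ hxM (z ^ i)⁻¹
      show _ = ∏ u ∈ O0, term lam (v : G) u
      have h1 : ∀ u : G ⧸ N, term lam x (z ^ i • u) * term lam ((z ^ i : T) : G) u =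
          term lam ((z ^ i : T) : G) (v • u) * term lam (v : G) u := fun u => by
        have e1 : z ^ i • u = ((z ^ i : T) : G) • u := rfl
        have e2 : v • u = (v : G) • u := rfl
        rw [e1, e2, ← term_mul, ← term_mul]
        congr 1
        simp [v, mul_assoc]
      have h2 := Finset.prod_congr rfl fun u (_ : u ∈ O0) => h1 u
      rw [Finset.prod_mul_distrib, Finset.prod_mul_distrib,
        hO0 v hv (fun u => term lam ((z ^ i : T) : G) u), mul_comm] at h2
      exact mul_left_cancel h2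
    have hsplit : ∏ u ∈ (Finset.univ.filter fun u => u ∈ MulAction.orbit T t), term lam x u =
        ∏ i ∈ range p, ∏ u ∈ O0, term lam x (z ^ i • u) := by
      rw [← Finset.prod_product']
      symm
      refine Finset.prod_bij (fun iu _ => z ^ iu.1 • iu.2) ?_ ?_ ?_ (fun _ _ => rfl)
      · intro iu hiu
        obtain ⟨v, -, hv⟩ := (Finset.mem_filter.mp (Finset.mem_product.mp hiu).2).2
        exact Finset.mem_filter.mpr ⟨Finset.mem_univ _, z ^ iu.1 * v, by
          show (z ^ iu.1 * v) • t = _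
          rw [mul_smul, hv]⟩
      · rintro ⟨i, a⟩ hia ⟨j, b⟩ hjb h
        obtain ⟨hi', ha⟩ := Finset.mem_product.mp hia
        obtain ⟨hj', hb⟩ := Finset.mem_product.mp hjb
        obtain ⟨v, hv, rfl⟩ := (Finset.mem_filter.mp ha).2
        obtain ⟨w, hw, rfl⟩ := (Finset.mem_filter.mp hb).2
        simp only at h hi' hj'
        have hij : i = j := by
          have h1 : ((z ^ j * w)⁻¹ * (z ^ i * v)) • t = t := by
            rw [mul_smul, mul_smul, h, ← mul_smul (z ^ j), inv_smul_smul]
          have h2 : (z ^ j * w)⁻¹ * (z ^ i * v) ∈ M := hRM (MulAction.mem_stabilizer_iff.mpr h1)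
          have h3 : (z ^ j)⁻¹ * z ^ i ∈ M := by
            have := mul_mem (mul_mem hw h2) (inv_mem hv)
            simpa [mul_assoc] using this
          rcases lt_trichotomy i j with hlt | heq | hlt
          · refine absurd (inv_mem h3) ?_
            rw [mul_inv_rev, inv_inv,
              show (z ^ i)⁻¹ * z ^ j = z ^ (j - i) by
                rw [inv_mul_eq_iff_eq_mul, ← pow_add, Nat.add_sub_cancel' hlt.le]]
            exact H80.Yoshida.pow_notMem_of_index_prime hMi hzM (by omega)
              (by have := Finset.mem_range.mp hj'; omega)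
          · exact heq
          · refine absurd h3 ?_
            rw [show (z ^ j)⁻¹ * z ^ i = z ^ (i - j) by
                rw [inv_mul_eq_iff_eq_mul, ← pow_add, Nat.add_sub_cancel' hlt.le]]
            exact H80.Yoshida.pow_notMem_of_index_prime hMi hzM (by omega)
              (by have := Finset.mem_range.mp hi'; omega)
        subst hij
        exact Prod.ext rfl (MulAction.injective _ h)
      · intro u hu
        obtain ⟨a, ha⟩ := (Finset.mem_filter.mp hu).2
        obtain ⟨i, hi', hia⟩ := H80.Yoshida.exists_pow_coset hMi hzM a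
        exact ⟨(i, ((z ^ i)⁻¹ * a) • t), Finset.mem_product.mpr ⟨Finset.mem_range.mpr hi',
          Finset.mem_filter.mpr ⟨Finset.mem_univ _, _, hia, rfl⟩⟩, by
          show z ^ i • ((z ^ i)⁻¹ * a) • t = u
          rw [mul_smul, smul_inv_smul]
          exact ha⟩
    rw [hsplit, Finset.prod_congr rfl fun i _ => hi i]
    set f := fun y : T => y⁻¹ * z⁻¹ * y * z
    set g := fun y : G => y⁻¹ * (z : G)⁻¹ * y * z
    have hfg : ∀ k, ((f^[k] ⟨x, hxT⟩ : T) : G) = g^[k] x := fun k => by
      induction k with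
      | zero => rfl
      | succ k ih => rw [Function.iterate_succ_apply', Function.iterate_succ_apply', ← ih]; rfl
    have hfM : ∀ k, f^[k] ⟨x, hxT⟩ ∈ M := fun k => by
      induction k with
      | zero => exact hxM
      | succ k ih =>
        rw [Function.iterate_succ_apply']
        have := mul_mem (inv_mem ih) (hMn.conj_mem _ ih z⁻¹)
        simpa [f, mul_assoc] using this
    rw [← hom_iterate μ z _ hxM (hfM (p - 1))]
    set W₀ : Subgroup W := (M.map T.subtype).subgroupOf W
    have hW₀ : IsCoatom W₀ := by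
      have hle : W ≤ T := le_sup_left
      let ι : W →* T ⧸ M := (QuotientGroup.mk' M).comp (Subgroup.inclusion hle)
      have hker : W₀ = ι.ker := by
        ext w
        rw [MonoidHom.mem_ker]
        show (w : G) ∈ M.map T.subtype ↔ ((Subgroup.inclusion hle w : T) : T ⧸ M) = 1
        rw [QuotientGroup.eq_one_iff]
        constructor
        · rintro ⟨y, hy, hye⟩
          have : y = Subgroup.inclusion hle w := Subtype.ext hye
          rwa [← this]
        · exact fun h => ⟨_, h, rfl⟩
      have hidx : W₀.index = p := by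
        rw [hker, Subgroup.index_ker]
        have hcard : Nat.card (T ⧸ M) = p := hMi
        haveI : Fact (Nat.card (T ⧸ M)).Prime := ⟨hcard ▸ hp⟩
        rcases ι.range.eq_bot_or_eq_top_of_prime_card with h | h
        · exfalso
          refine hzM ((QuotientGroup.eq_one_iff z).mp ?_)
          have : ι ⟨z, hzW⟩ ∈ ι.range := ⟨_, rfl⟩
          rw [h, Subgroup.mem_bot] at this
          exact this
        · rw [h, Subgroup.card_top, hcard]
      constructor
      · intro h
        rw [h, Subgroup.index_top] at hidx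
        exact hp.one_lt.ne hidx
      · intro K hK
        have h1 := Subgroup.index_dvd_of_le hK.le
        rw [hidx] at h1
        rcases (Nat.dvd_prime hp).mp h1 with h | h
        · exact Subgroup.index_eq_one.mp h
        · exact absurd (Subgroup.eq_of_le_of_card_ge hK.le (by
            have e1 := K.card_mul_index
            have e2 := W₀.card_mul_index
            rw [h, ← e2, hidx] at e1
            exact le_of_eq (Nat.eq_of_mul_eq_mul_right hp.pos e1))) hK.ne
    have hWc : g^[p - 1] x ∈ W := by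
      have hn : ∀ k, g^[k + 1] x ∈ W := fun k => by
        rw [Function.iterate_succ_apply']
        have hgS : g^[k] x ∈ (S : Subgroup G) := hfg k ▸ hTS (f^[k] _).2
        have := mul_mem ((Subgroup.mem_normalizer_iff.mp (inv_mem (hSN hgS)) _).mp (inv_mem hzW)) hzW
        simpa [g] using this
      rw [show p - 1 = p - 2 + 1 by have := hp.two_le; omega]
      exact hn _
    have hWM : g^[p - 1] x ∈ M.map T.subtype := ⟨_, hfM (p - 1), hfg (p - 1)⟩
    obtain ⟨a, ⟨b, hb, rfl⟩, hbc⟩ := hneg x hx z hzW W₀ hW₀ ⟨⟨_, hWc⟩, hWM, rfl⟩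
    have hinto : ∀ w : W₀, ∃ v : M, ((v : T) : G) = ((w : W) : G) := fun w => by
      obtain ⟨y, hy, hye⟩ := w.2
      exact ⟨⟨y, hy⟩, hye⟩
    choose ι hι using hinto
    let μ₀ : W₀ →* Multiplicative (ZMod p) := MonoidHom.mk' (fun w => μ (ι w)) fun v w => by
      rw [← map_mul]
      refine congrArg μ (Subtype.ext (Subtype.ext ?_))
      simp [hι]
    have hfr : μ₀ b = 1 := by
      by_contra hne
      have hco : IsCoatom μ₀.ker := by
        have hidx : μ₀.ker.index = p := by
          rw [Subgroup.index_ker]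
          haveI : Fact (Nat.card (Multiplicative (ZMod p))).Prime := ⟨by
            rw [Nat.card_congr Multiplicative.toAdd, Nat.card_zmod]; exact hp⟩
          rcases μ₀.range.eq_bot_or_eq_top_of_prime_card with h | h
          · exfalso
            have : μ₀ b ∈ μ₀.range := ⟨_, rfl⟩
            rw [h, Subgroup.mem_bot] at this
            exact hne this
          · rw [h, Subgroup.card_top, Nat.card_congr Multiplicative.toAdd, Nat.card_zmod]
        constructor
        · intro h
          rw [h, Subgroup.index_top] at hidx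
          exact hp.one_lt.ne hidx
        · intro K hK
          have h1 := Subgroup.index_dvd_of_le hK.le
          rw [hidx] at h1
          rcases (Nat.dvd_prime hp).mp h1 with h | h
          · exact Subgroup.index_eq_one.mp h
          · exact absurd (Subgroup.eq_of_le_of_card_ge hK.le (by
              have e1 := K.card_mul_index
              have e2 := μ₀.ker.card_mul_index
              rw [h, ← e2, hidx] at e1
              exact le_of_eq (Nat.eq_of_mul_eq_mul_right hp.pos e1))) hK.ne
      exact hne (frattini_le_coatom hco hb)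
    have hcb : (⟨_, hfM (p - 1)⟩ : M) = ι b := Subtype.ext (Subtype.ext (by
      show ((f^[p - 1] ⟨x, hxT⟩ : T) : G) = _
      rw [hfg, hι, ← hbc]
      rfl))
    rw [hcb]
    exact hfr
  rw [transfer_eq]
  have hbase : ∀ g ∈ T, g • ((1 : G) : G ⧸ N) = ((1 : G) : G ⧸ N) := fun g hg =>
    QuotientGroup.eq.mpr (by simpa using inv_mem (hSN (hTS hg)))
  rw [← Finset.mul_prod_erase Finset.univ _ (Finset.mem_univ ((1 : G) : G ⧸ N))]
  have hrest : ∀ U : Finset (G ⧸ N), (∀ g : T, ∀ t ∈ U, g • t ∈ U) →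
      ((1 : G) : G ⧸ N) ∉ U → ∏ t ∈ U, term lam x t = 1 := by
    intro U
    induction U using Finset.strongInduction with
    | _ U ih =>
    intro hU h1U
    by_cases hfix : ∃ t ∈ U, x • t = t
    · obtain ⟨t, htU, hxt⟩ := hfix
      set O := Finset.univ.filter fun u => u ∈ MulAction.orbit T t
      have hO : O ⊆ U := fun u hu => by
        obtain ⟨g, rfl⟩ := (Finset.mem_filter.mp hu).2
        exact hU g t htU
      rw [← Finset.prod_sdiff hO, horbit t (fun h => h1U (h ▸ htU)) hxt, mul_one]
      refine ih _ (Finset.sdiff_ssubset hO ⟨t, Finset.mem_filter.mpr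
        ⟨Finset.mem_univ _, MulAction.mem_orbit_self t⟩⟩) (fun g u hu => ?_)
        fun h => h1U (Finset.mem_sdiff.mp h).1
      obtain ⟨hu1, hu2⟩ := Finset.mem_sdiff.mp hu
      refine Finset.mem_sdiff.mpr ⟨hU g u hu1, fun h => hu2 ?_⟩
      obtain ⟨g', hg'⟩ := (Finset.mem_filter.mp h).2
      refine Finset.mem_filter.mpr ⟨Finset.mem_univ _, g⁻¹ * g', ?_⟩
      show (g⁻¹ * g') • t = u
      rw [mul_smul, show g' • t = g • u from hg', inv_smul_smul]
    · push Not at hfix
      refine hlong U (fun t => ⟨hU ⟨x, hxT⟩ t, fun h => ?_⟩) hfix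
      have := hU (⟨x, hxT⟩ : T)⁻¹ _ h
      have e : (⟨x, hxT⟩ : T)⁻¹ • x • t = t := inv_smul_smul x t
      rwa [e] at this
  rw [hrest _ (fun g t ht => Finset.mem_erase.mpr ⟨fun h => (Finset.mem_erase.mp ht).1 (by
    rw [← inv_smul_smul g t, h]
    exact hbase _ (g⁻¹).2), Finset.mem_univ _⟩) (Finset.notMem_erase _ _), mul_one, term]
  set o := ((1 : G) : G ⧸ N).out
  have ho : o ∈ N := by
    obtain ⟨n, hn⟩ := QuotientGroup.mk_out_eq_mul N (1 : G)
    show ((1 : G) : G ⧸ N).out ∈ N
    rw [hn, one_mul]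
    exact n.2
  have e : (⟨(x • ((1 : G) : G ⧸ N)).out⁻¹ * (x * o), by
      rw [hbase x hxT]; exact mul_mem (inv_mem ho) (mul_mem (hSN hx) ho)⟩ : N) =
      (⟨o, ho⟩ : N)⁻¹ * ⟨x, hSN hx⟩ * ⟨o, ho⟩ := Subtype.ext (by simp [hbase x hxT, o, mul_assoc])
  rw [show lam _ = lam ((⟨o, ho⟩ : N)⁻¹ * ⟨x, hSN hx⟩ * ⟨o, ho⟩) from congrArg lam e, map_mul,
    map_mul, map_inv, mul_comm (lam ⟨o, ho⟩)⁻¹, inv_mul_cancel_right]

/-- Abelian groups: a proper subgroup of a coprime-index subgroup is missed by a character. -/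
theorem exists_hom_of_lt {A : Type*} [CommGroup A] [Finite A] {B C : Subgroup A} (hB : IsPGroup p B)
    (hBi : B.index.Coprime p) (hCB : C < B) :
    ∃ χ : A →* Multiplicative (ZMod p), (∀ c ∈ C, χ c = 1) ∧ ∃ b ∈ B, χ b ≠ 1 := by
  have hp := (Fact.out : p.Prime)
  obtain ⟨M, hMn, hMi, hCM⟩ := H80.Yoshida.exists_index_prime hB (T := C.subgroupOf B) fun h =>
    hCB.not_ge (Subgroup.subgroupOf_eq_top.mp h)
  have hcard : Nat.card (B ⧸ M) = p := hMi
  haveI : IsCyclic (B ⧸ M) := isCyclic_of_prime_card hcard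
  have hz : Nat.card (Multiplicative (ZMod p)) = p := by
    rw [Nat.card_congr Multiplicative.toAdd, Nat.card_zmod]
  let e : B ⧸ M ≃* Multiplicative (ZMod p) := mulEquivOfCyclicCardEq (hcard.trans hz.symm)
  let π : A →* B := MonoidHom.mk' (fun a => ⟨a ^ B.index, Subgroup.pow_index_mem B a⟩)
    fun a b => Subtype.ext (mul_pow a b _)
  refine ⟨e.toMonoidHom.comp ((QuotientGroup.mk' M).comp π), fun c hc => ?_, ?_⟩
  · show e (QuotientGroup.mk' M (π c)) = 1
    rw [show (QuotientGroup.mk' M) (π c) = 1 from (QuotientGroup.eq_one_iff _).mpr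
      (hCM (Subgroup.mem_subgroupOf.mpr (pow_mem hc _) : π c ∈ C.subgroupOf B)), map_one]
  · obtain ⟨b, hb⟩ : ∃ b : B, b ∉ M := not_forall.mp fun h => by
      rw [show M = ⊤ from eq_top_iff.mpr fun b _ => h b, Subgroup.index_top] at hMi
      exact hp.one_lt.ne hMi
    refine ⟨b, b.2, fun h => hb ?_⟩
    have h1 : QuotientGroup.mk' M (π b) = 1 := e.injective (h.trans e.map_one.symm)
    have h2 : b ^ B.index ∈ M := (QuotientGroup.eq_one_iff _).mp h1
    by_contra hbM
    obtain ⟨j, hj⟩ := hB b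
    obtain ⟨m, hm⟩ := exists_pow_eq_self_of_coprime (x := b) (n := B.index)
      (Nat.Coprime.coprime_dvd_right (orderOf_dvd_of_pow_eq_one hj) (hBi.pow_right j))
    exact hbM (hm ▸ pow_mem h2 m)

/-- The control of transfer. -/
theorem commutator_inf_le (hW : Cfsg.IsWeaklyClosed W (S : Subgroup G)) (hneg : Neg S W) :
    (S : Subgroup G) ⊓ commutator G ≤
      ⁅Subgroup.normalizer (W : Set G), Subgroup.normalizer (W : Set G)⁆ := by
  classical
  have hp := (Fact.out : p.Prime)
  set N := Subgroup.normalizer (W : Set G)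
  haveI : Fintype (G ⧸ N) := Fintype.ofFinite _
  have hSN := sylow_le_normalizer S hW
  have h1 : ∀ (m : ℕ) (lam : N →* Multiplicative (ZMod p)) (x : G) (hx : x ∈ (S : Subgroup G)),
      x ∈ commutator G → orderOf x ≤ m → lam ⟨x, hSN hx⟩ = 1 := by
    intro m
    induction m with
    | zero => intro lam x _ _ h; have := orderOf_pos x; omega
    | succ m ih =>
      intro lam x hx hxc hm
      rw [← transfer_eq_self S hW hneg lam x hx fun k g h hpk => ?_]
      · exact Abelianization.commutator_subset_ker _ hxc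
      · by_cases hx1 : x = 1
        · simp [hx1]
          exact map_one lam
        refine ih lam _ h ?_ ?_
        · simpa using Subgroup.Normal.conj_mem inferInstance _ (pow_mem hxc k) g⁻¹
        · obtain ⟨e, he⟩ := S.2 ⟨x, hx⟩
          obtain ⟨j, -, hj⟩ := (Nat.dvd_prime_pow hp).mp
            (orderOf_dvd_of_pow_eq_one (congrArg Subtype.val he : x ^ p ^ e = 1))
          have hj0 : j ≠ 0 := fun h0 => hx1 (orderOf_eq_one_iff.mp (by rw [hj, h0, pow_zero]))
          have hu : orderOf (g⁻¹ * x ^ k * g) ∣ p ^ (j - 1) := by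
            refine orderOf_dvd_of_pow_eq_one ?_
            obtain ⟨l, rfl⟩ := hpk
            have : (g⁻¹ * x ^ (p * l) * g) ^ p ^ (j - 1) =
                g⁻¹ * (x ^ (p * l)) ^ p ^ (j - 1) * g := by
              simpa using conj_pow (a := g⁻¹) (b := x ^ (p * l)) (i := p ^ (j - 1))
            rw [this, ← pow_mul, show p * l * p ^ (j - 1) = p ^ (j - 1 + 1) * l by rw [pow_succ]; ring,
              Nat.sub_add_cancel (Nat.one_le_iff_ne_zero.mpr hj0), pow_mul, ← hj, pow_orderOf_eq_one,
              one_pow]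
            simp
          have := Nat.le_of_dvd (pow_pos hp.pos _) hu
          have : p ^ (j - 1) < p ^ j := Nat.pow_lt_pow_right hp.one_lt (by omega)
          rw [hj] at hm
          omega
  set V : G →* Abelianization N := MonoidHom.transfer Abelianization.of
  have h2 : ∀ (χ : Abelianization N →* Multiplicative (ZMod p)) (s : G) (hs : s ∈ (S : Subgroup G)),
      χ (V s) = χ (Abelianization.of ⟨s, hSN hs⟩) := by
    intro χ s hs
    have hnat : χ (V s) = MonoidHom.transfer (χ.comp Abelianization.of) s := by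
      rw [transfer_eq, transfer_eq, map_prod]
      rfl
    rw [hnat]
    refine transfer_eq_self S hW hneg _ s hs fun k g h hpk => ?_
    set lam := χ.comp Abelianization.of
    have hsk : s ^ k ∈ (S : Subgroup G) := pow_mem hs k
    have h3 : lam ⟨(s ^ k)⁻¹ * (g⁻¹ * s ^ k * g), hSN (mul_mem (inv_mem hsk) h)⟩ = 1 :=
      h1 _ lam _ (mul_mem (inv_mem hsk) h) (by
        have : ⁅(s ^ k)⁻¹, g⁻¹⁆ ∈ commutator G :=
          Subgroup.commutator_mem_commutator (Subgroup.mem_top _) (Subgroup.mem_top _)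
        simpa [commutatorElement_def, mul_assoc] using this) le_rfl
    have h4 : lam ⟨s ^ k, hSN hsk⟩ = 1 := by
      rw [show (⟨s ^ k, hSN hsk⟩ : N) = ⟨s, hSN hs⟩ ^ k from rfl, map_pow]
      obtain ⟨l, rfl⟩ := hpk
      rw [pow_mul]
      have : ∀ a : Multiplicative (ZMod p), a ^ p = 1 := fun a => Multiplicative.toAdd.injective (by simp)
      rw [this, one_pow]
    have h5 : (⟨g⁻¹ * s ^ k * g, hSN h⟩ : N) =
        ⟨s ^ k, hSN hsk⟩ * ⟨(s ^ k)⁻¹ * (g⁻¹ * s ^ k * g), hSN (mul_mem (inv_mem hsk) h)⟩ :=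
      Subtype.ext (by simp)
    rw [h5, map_mul, h3, h4, one_mul]
  set B : Subgroup (Abelianization N) := ((S : Subgroup G).subgroupOf N).map Abelianization.of
  have hBp : IsPGroup p B := (S.2.comap_of_injective N.subtype N.subtype_injective).map _
  have hBi : B.index.Coprime p := by
    refine Nat.Coprime.coprime_dvd_left (Subgroup.index_map_dvd _
      (QuotientGroup.mk_surjective : Function.Surjective (Abelianization.of : N →* _))) ?_
    exact Nat.Coprime.symm
      ((Nat.Prime.coprime_iff_not_dvd hp).mpr (Sylow.not_dvd_index (S.subtype hSN)))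
  let φ : (S : Subgroup G) →* Abelianization N := V.comp (S : Subgroup G).subtype
  have hrange : φ.range ≤ B := by
    rintro _ ⟨s, rfl⟩
    have hz : IsPGroup p (Subgroup.zpowers (φ s)) := (S.2.map V).to_le (by
      rw [Subgroup.zpowers_le]
      exact ⟨s, s.2, rfl⟩)
    obtain ⟨e, he⟩ := hz ⟨φ s, Subgroup.mem_zpowers _⟩
    have he' : φ s ^ p ^ e = 1 := congrArg Subtype.val he
    obtain ⟨m, hm⟩ := exists_pow_eq_self_of_coprime (x := φ s) (n := B.index)
      (Nat.Coprime.coprime_dvd_right (orderOf_dvd_of_pow_eq_one he') (hBi.pow_right e))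
    exact hm ▸ pow_mem (Subgroup.pow_index_mem B _) m
  have heq : φ.range = B := by
    by_contra hne
    obtain ⟨χ, hχ, b, hb, hb1⟩ := exists_hom_of_lt hBp hBi (lt_of_le_of_ne hrange hne)
    obtain ⟨s, hs, rfl⟩ := hb
    refine hb1 ?_
    rw [show Abelianization.of s = Abelianization.of (⟨(s : G), hSN hs⟩ : N) from rfl, ← h2 χ s hs]
    exact hχ _ ⟨⟨s, hs⟩, rfl⟩
  let ψ : (S : Subgroup G) →* Abelianization N := Abelianization.of.comp (Subgroup.inclusion hSN)
  have hψ : ψ.range = B := by
    ext b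
    constructor
    · rintro ⟨s, rfl⟩
      exact ⟨Subgroup.inclusion hSN s, s.2, rfl⟩
    · rintro ⟨s, hs, rfl⟩
      exact ⟨⟨s, hs⟩, rfl⟩
  have hker1 : (commutator G).subgroupOf (S : Subgroup G) ≤ φ.ker := fun s hs =>
    Abelianization.commutator_subset_ker V hs
  have hker2 : ψ.ker ≤ (commutator G).subgroupOf (S : Subgroup G) := fun s hs => by
    have h : Subgroup.inclusion hSN s ∈ commutator N := (QuotientGroup.eq_one_iff _).mp hs
    have h' : (commutator N).map N.subtype ≤ commutator G := by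
      rw [commutator_def, Subgroup.map_commutator]
      exact Subgroup.commutator_mono le_top le_top
    exact h' ⟨_, h, rfl⟩
  have hkk : ψ.ker = φ.ker := Subgroup.eq_of_le_of_card_ge (hker2.trans hker1) (by
    have e1 := φ.ker.card_mul_index
    have e2 := ψ.ker.card_mul_index
    rw [Subgroup.index_ker, heq] at e1
    rw [Subgroup.index_ker, hψ, ← e1] at e2
    exact le_of_eq (Nat.eq_of_mul_eq_mul_right Nat.card_pos e2).symm)
  intro x hx
  have h := hkk.symm.le (hker1 (show (⟨x, hx.1⟩ : (S : Subgroup G)) ∈ _ from hx.2))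
  have h' : Subgroup.inclusion hSN ⟨x, hx.1⟩ ∈ commutator N := (QuotientGroup.eq_one_iff _).mp h
  have h'' : (commutator N).map N.subtype = ⁅N, N⁆ := by
    rw [commutator_def, Subgroup.map_commutator, ← MonoidHom.range_eq_map, Subgroup.range_subtype]
  exact h''.le ⟨_, h', rfl⟩

end Cfsg.Agent.H20.WCTransfer
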